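import Groth.Agent.Lefpen.H584.InvBC
import Groth.Agent.Etbc.H195.FieldExtAcyc
import Groth.Agent.S0162
import Groth.Agent.Etcore.Torsion

/-!
# Cohomology of a smooth scheme over a normal base with separably closed function field

* `inv_smooth_generic`: `S` normal integral with separably closed function field `K`, `f : V ⟶ S` smooth,
  `M` killed by `n` invertible on `S`: `H^q(V, M) → H^q(V_K, M)` is bijective for all `q`.
* `inv_smooth_geometric`: the same for `V_Ω`, `Ω` a separably closed extension of `K`.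
* `inv_smooth_domain`, `Hpull_bijective`: `S = Spec W`, `W` a normal domain.
-/

set_option autoImplicit false
universe u
open CategoryTheory CategoryTheory.Limits AlgebraicGeometry Opposite

namespace Groth.Agent.Lefpen.H584.SmoothGen

open EtCoh Groth.Agent.Ega2.LACRB

variable {S V V' : Scheme.{u}}

theorem isTorsionInvertibleOn_const {T : Scheme.{u}} (M : Type) [AddCommGroup M] (n : ℕ)
    (hn : IsUnit (n : Γ(S, ⊤))) (hM : ∀ m : M, n • m = 0) :
    EtPBC.IsTorsionInvertibleOn S (const T M) := fun U _ x =>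
  ⟨U, 𝟙 U, n, ⟨x, rfl⟩, hn, Groth.Agent.EtpbcB.TorsionBasic.killedBy_const M n hM U _⟩

theorem isLTorsion_const {T : Scheme.{u}} (M : Type) [AddCommGroup M] (n : ℕ) (K : Type u) [Field K]
    (hn : (n : K) ≠ 0) (hM : ∀ m : M, n • m = 0) :
    EtAcyc.IsLTorsion {ℓ | ℓ.Prime ∧ ℓ ≠ ringChar K} (const T M) := fun U _ x => by
  refine ⟨U, 𝟙 U, n, ⟨x, rfl⟩, ⟨Nat.pos_of_ne_zero fun h0 => hn (by rw [h0, Nat.cast_zero]), ?_⟩,
    Groth.Agent.EtpbcB.TorsionBasic.killedBy_const M n hM U _⟩
  intro p hp hpn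
  refine ⟨hp, fun h => hn ?_⟩
  exact (ringChar.spec K n).2 (h ▸ hpn)

/-- `L`-torsion is preserved by pullback. -/
theorem isLTorsion_pull {L : Set ℕ} {T U : Scheme.{u}} (t : T ⟶ U) (F : Ab U)
    (hF : EtAcyc.IsLTorsion L F) : EtAcyc.IsLTorsion L ((pull t).obj F) := by
  unfold EtAcyc.IsLTorsion at hF ⊢
  rw [Etcore.Torsion.local_iff_stalk (EtAcyc.PrimesIn L)] at hF ⊢
  exact Etcore.Torsion.stalk_prop_pull _ t F hF

/-- Generic fibre. -/
theorem inv_smooth_generic [IsIntegral S] (hN : ∀ x : S, IsIntegrallyClosed (S.presheaf.stalk x))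
    {K : Type u} [Field K] [IsSepClosed K] (g : Spec (CommRingCat.of K) ⟶ S) [IsPreimmersion g]
    [QuasiCompact g] [QuasiSeparated g]
    (hg : Set.range g = {genericPoint S}) (f : V ⟶ S) [Smooth f] {h : V' ⟶ V}
    {e : V' ⟶ Spec (CommRingCat.of K)} (hsq : IsPullback h e f g) (M : Type) [AddCommGroup M] (n : ℕ)
    (hn : IsUnit (n : Γ(S, ⊤))) (hM : ∀ m : M, n • m = 0) :
    Inv h (const V M) := by
  have hF : EtPBC.IsTorsionInvertibleOn S ((pull g).obj (const S M)) :=
    Groth.Agent.Etcore.Torsion.isTorsionInvertibleOn_pull S g _ (isTorsionInvertibleOn_const M n hn hM)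
  exact InvBC.inv_generic_of_bc hN g hg f h e hsq.flip.w M
    (fun q _ => (Groth.Agent.S0162.result f g h e hsq.flip _ hF q).1)
    (Groth.Agent.S0162.result f g h e hsq.flip _ hF 0).2

/-- Geometric generic fibre. -/
theorem inv_smooth_geometric [IsIntegral S] (hN : ∀ x : S, IsIntegrallyClosed (S.presheaf.stalk x))
    {K : Type u} [Field K] [IsSepClosed K] (g : Spec (CommRingCat.of K) ⟶ S) [IsPreimmersion g]
    [QuasiCompact g] [QuasiSeparated g]
    (hg : Set.range g = {genericPoint S}) (f : V ⟶ S) [Smooth f]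
    {Ω : Type u} [Field Ω] [IsSepClosed Ω] (φ : K →+* Ω) {h : V' ⟶ V}
    {e : V' ⟶ Spec (CommRingCat.of Ω)}
    (hsq : IsPullback h e f (Spec.map (CommRingCat.ofHom φ) ≫ g)) (M : Type) [AddCommGroup M] (n : ℕ)
    (hn : IsUnit (n : Γ(S, ⊤))) (hM : ∀ m : M, n • m = 0) :
    Inv h (const V M) := by
  have h1 := inv_smooth_generic hN g hg f (IsPullback.of_hasPullback f g) M n hn hM
  have hnK : (n : K) ≠ 0 := by
    have h2 := (hn.map g.appTop.hom).map (Scheme.ΓSpecIso (CommRingCat.of K)).hom.hom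
    rw [map_natCast, map_natCast] at h2
    exact h2.ne_zero
  let l : V' ⟶ pullback f g := pullback.lift h (e ≫ Spec.map (CommRingCat.ofHom φ))
    (by rw [Category.assoc]; exact hsq.w)
  have hl : IsPullback l e (pullback.snd f g) (Spec.map (CommRingCat.ofHom φ)) := by
    refine IsPullback.of_right (h₁₂ := pullback.fst f g) (h₂₂ := g) (v₁₃ := f) ?_
      (pullback.lift_snd _ _ _) (IsPullback.of_hasPullback f g)
    rw [pullback.lift_fst]
    exact hsq
  have h3 : Inv l ((pull (pullback.fst f g)).obj (const V M)) :=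
    Groth.Agent.Etbc.H195.FieldExtAcyc.inv_of_isPullback φ hl _
      (isLTorsion_pull _ _ (isLTorsion_const M n K hnK hM))
  exact (h3.comp h1).congr (pullback.lift_fst _ _ _)

/-- `S = Spec W`, `W` a normal domain with separably closed fraction field `K`. -/
theorem inv_smooth_domain (W : Type u) [CommRing W] [IsDomain W] [IsIntegrallyClosed W]
    (K : Type u) [Field K] [Algebra W K] [IsFractionRing W K] [IsSepClosed K]
    (f : V ⟶ Spec (CommRingCat.of W)) [Smooth f] {Ω : Type u} [Field Ω] [IsSepClosed Ω]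
    (φ : K →+* Ω) {h : V' ⟶ V} {e : V' ⟶ Spec (CommRingCat.of Ω)}
    (hsq : IsPullback h e f (Spec.map (CommRingCat.ofHom (φ.comp (algebraMap W K)))))
    (M : Type) [AddCommGroup M] (n : ℕ) (hn : IsUnit (n : W)) (hM : ∀ m : M, n • m = 0) :
    Inv h (const V M) := by
  have hpre : IsPreimmersion (Spec.map (CommRingCat.ofHom (algebraMap W K))) :=
    IsPreimmersion.of_isLocalization (nonZeroDivisors W)
  have hrange := Lefpen.H416.NormalBase.range_specMap W K (IsFractionRing.injective W K)
  have hN : ∀ x : Spec (CommRingCat.of W),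
      IsIntegrallyClosed ((Spec (CommRingCat.of W)).presheaf.stalk x) :=
    fun x => (Lefpen.H416.NormalBase.isNormalScheme_spec W x).2
  have hn' : IsUnit (n : Γ(Spec (CommRingCat.of W), ⊤)) := by
    have h2 := hn.map (Scheme.ΓSpecIso (CommRingCat.of W)).inv.hom
    rwa [map_natCast] at h2
  rw [CommRingCat.ofHom_comp, Spec.map_comp] at hsq
  exact inv_smooth_geometric hN _ hrange f φ hsq M n hn' hM

/-- The pullback maps `H^q(V, M) → H^q(V_Ω, M_{V_Ω})` are bijective. -/
theorem Hpull_bijective (W : Type u) [CommRing W] [IsDomain W] [IsIntegrallyClosed W]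
    (K : Type u) [Field K] [Algebra W K] [IsFractionRing W K] [IsSepClosed K]
    (f : V ⟶ Spec (CommRingCat.of W)) [Smooth f] {Ω : Type u} [Field Ω] [IsSepClosed Ω]
    (φ : K →+* Ω) {h : V' ⟶ V} {e : V' ⟶ Spec (CommRingCat.of Ω)}
    (hsq : IsPullback h e f (Spec.map (CommRingCat.ofHom (φ.comp (algebraMap W K)))))
    (M : Type) [AddCommGroup M] (n : ℕ) (hn : IsUnit (n : W)) (hM : ∀ m : M, n • m = 0)
    [PreservesFiniteLimits (pull h)] (q : ℕ) :
    Function.Bijective (EtCore.Hpull h (const V M) q) :=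
  (Groth.Agent.Etcore.HpullCalc.bijective_Hpull_iff h _ q).2
    (inv_smooth_domain W K f φ hsq M n hn hM q)

/-- The version with `Ω` an extension of `W` containing a fraction field. -/
theorem inv_smooth_domain' (W : Type u) [CommRing W] [IsDomain W] [IsIntegrallyClosed W]
    (hW : IsSepClosed (FractionRing W))
    (f : V ⟶ Spec (CommRingCat.of W)) [Smooth f] {Ω : Type u} [Field Ω] [IsSepClosed Ω]
    (φ : W →+* Ω) (hφ : Function.Injective φ) {h : V' ⟶ V} {e : V' ⟶ Spec (CommRingCat.of Ω)}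
    (hsq : IsPullback h e f (Spec.map (CommRingCat.ofHom φ)))
    (M : Type) [AddCommGroup M] (n : ℕ) (hn : IsUnit (n : W)) (hM : ∀ m : M, n • m = 0) :
    Inv h (const V M) := by
  have h1 : φ = (IsFractionRing.lift (A := W) (K := FractionRing W) hφ).comp
      (algebraMap W (FractionRing W)) := by
    ext x
    rw [RingHom.comp_apply, IsFractionRing.lift_algebraMap]
  rw [h1] at hsq
  exact inv_smooth_domain W (FractionRing W) f _ hsq M n hn hM

end Groth.Agent.Lefpen.H584.SmoothGen
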